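/-
Upper unitriangular matrices of degree five over the field with two elements, and their central quotient.
-/
import Mathlib

set_option autoImplicit false
set_option maxRecDepth 4000

namespace CfsgLib.UTModel

open Matrix

local notation "F₂" => ZMod 2

/-- The entries above the diagonal except the corner: `a = 01`, `b = 12`, `c = 23`, `d = 34`, `e = 02`,
`f = 13`, `g = 24`, `h = 03`, `i = 14`. -/
@[ext] structure U9 where
  a : F₂
  b : F₂
  c : F₂
  d : F₂
  e : F₂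
  f : F₂
  g : F₂
  h : F₂
  i : F₂
deriving DecidableEq

namespace U9

theorem two0 : (2 : F₂) = 0 := rfl

instance : Mul U9 where
  mul x y := ⟨x.a + y.a, x.b + y.b, x.c + y.c, x.d + y.d, x.e + y.e + x.a * y.b, x.f + y.f + x.b * y.c,
    x.g + y.g + x.c * y.d, x.h + y.h + x.a * y.f + x.e * y.c, x.i + y.i + x.b * y.g + x.f * y.d⟩

instance : One U9 where one := ⟨0, 0, 0, 0, 0, 0, 0, 0, 0⟩

instance : Inv U9 where
  inv x := ⟨x.a, x.b, x.c, x.d, x.e + x.a * x.b, x.f + x.b * x.c, x.g + x.c * x.d,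
    x.h + x.a * x.f + x.e * x.c + x.a * x.b * x.c, x.i + x.b * x.g + x.f * x.d + x.b * x.c * x.d⟩

theorem mul_def (x y : U9) : x * y =
    ⟨x.a + y.a, x.b + y.b, x.c + y.c, x.d + y.d, x.e + y.e + x.a * y.b, x.f + y.f + x.b * y.c,
      x.g + y.g + x.c * y.d, x.h + y.h + x.a * y.f + x.e * y.c, x.i + y.i + x.b * y.g + x.f * y.d⟩ := rfl

theorem one_def : (1 : U9) = ⟨0, 0, 0, 0, 0, 0, 0, 0, 0⟩ := rfl

theorem inv_def (x : U9) : x⁻¹ = ⟨x.a, x.b, x.c, x.d, x.e + x.a * x.b, x.f + x.b * x.c, x.g + x.c * x.d,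
    x.h + x.a * x.f + x.e * x.c + x.a * x.b * x.c, x.i + x.b * x.g + x.f * x.d + x.b * x.c * x.d⟩ := rfl

instance : Group U9 :=
  Group.ofLeftAxioms
    (fun x y z => by simp only [mul_def]; ext <;> simp only <;> ring)
    (fun x => by simp only [mul_def, one_def]; ext <;> simp)
    (fun x => by
      simp only [mul_def, one_def, inv_def]
      ext <;> simp only <;> ring_nf <;> simp [two0, show (3 : F₂) = 1 from rfl])

/-- All nine entries. -/
def toTuple : U9 ≃ F₂ × F₂ × F₂ × F₂ × F₂ × F₂ × F₂ × F₂ × F₂ where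
  toFun x := (x.a, x.b, x.c, x.d, x.e, x.f, x.g, x.h, x.i)
  invFun t := ⟨t.1, t.2.1, t.2.2.1, t.2.2.2.1, t.2.2.2.2.1, t.2.2.2.2.2.1, t.2.2.2.2.2.2.1, t.2.2.2.2.2.2.2.1,
    t.2.2.2.2.2.2.2.2⟩
  left_inv _ := rfl
  right_inv _ := rfl

instance : Fintype U9 := Fintype.ofEquiv _ toTuple.symm

theorem card_U9 : Nat.card U9 = 512 := by
  rw [Nat.card_congr toTuple]
  simp [Nat.card_prod]

/-- The abelian normal subgroup of order 64. -/
def A : Subgroup U9 where
  carrier := {x | x.b = 0 ∧ x.c = 0 ∧ x.f = 0}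
  one_mem' := ⟨rfl, rfl, rfl⟩
  mul_mem' := by
    rintro x y ⟨h1, h2, h3⟩ ⟨k1, k2, k3⟩
    simp only [Set.mem_ofPred_eq, mul_def]
    simp [h1, h2, h3, k1, k2, k3]
  inv_mem' := by
    rintro x ⟨h1, h2, h3⟩
    simp only [Set.mem_ofPred_eq, inv_def]
    simp [h1, h2, h3]

theorem mem_A {x : U9} : x ∈ A ↔ x.b = 0 ∧ x.c = 0 ∧ x.f = 0 := Iff.rfl

theorem A_comm {x y : U9} (hx : x ∈ A) (hy : y ∈ A) : x * y = y * x := by
  obtain ⟨h1, h2, h3⟩ := hx
  obtain ⟨k1, k2, k3⟩ := hy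
  simp only [mul_def]
  ext <;> simp [h1, h2, h3, k1, k2, k3, add_comm]

theorem A_sq {x : U9} (hx : x ∈ A) : x * x = 1 := by
  obtain ⟨h1, h2, h3⟩ := hx
  simp only [mul_def, one_def]
  ext <;> simp [h1, h2, h3, ← two_mul, two0]

theorem A_normal : A.Normal := ⟨fun x hx y => by
  obtain ⟨h1, h2, h3⟩ := hx
  refine ⟨?_, ?_, ?_⟩ <;> simp [mul_def, inv_def, h1, h2, h3] <;> ring_nf <;> simp [two0]⟩

/-- An element of the abelian subgroup. -/
def mkA (t : F₂ × F₂ × F₂ × F₂ × F₂ × F₂) : U9 :=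
  ⟨t.1, 0, 0, t.2.1, t.2.2.1, 0, t.2.2.2.1, t.2.2.2.2.1, t.2.2.2.2.2⟩

theorem mkA_injective : Function.Injective mkA := fun s t h => by
  simp only [mkA, U9.mk.injEq] at h
  obtain ⟨h1, -, -, h2, h3, -, h4, h5, h6⟩ := h
  exact Prod.ext h1 (Prod.ext h2 (Prod.ext h3 (Prod.ext h4 (Prod.ext h5 h6))))

theorem mem_A_iff {x : U9} : x ∈ A ↔ ∃ t, mkA t = x := by
  constructor
  · rintro ⟨h1, h2, h3⟩
    exact ⟨(x.a, x.d, x.e, x.g, x.h, x.i), U9.ext rfl h1.symm h2.symm rfl rfl h3.symm rfl rfl rfl⟩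
  · rintro ⟨t, rfl⟩; exact ⟨rfl, rfl, rfl⟩

theorem card_A : Nat.card A = 64 := by
  rw [← Nat.card_congr (Equiv.ofBijective (fun t => (⟨mkA t, mem_A_iff.2 ⟨t, rfl⟩⟩ : A))
    ⟨fun s t h => mkA_injective (congrArg Subtype.val h), fun x => by
      obtain ⟨t, ht⟩ := mem_A_iff.1 x.2
      exact ⟨t, Subtype.ext ht⟩⟩)]
  simp [Nat.card_prod]

/-- The image in the middle block. -/
def key (x : U9) : F₂ × F₂ × F₂ := (x.b, x.c, x.f)

/-- A representative of a middle block. -/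
def rep (u : F₂ × F₂ × F₂) : U9 := ⟨0, u.1, u.2.1, 0, 0, u.2.2, 0, 0, 0⟩

theorem exists_mul (x : U9) : ∃ t ∈ A, x = rep (key x) * t := by
  refine ⟨(rep (key x))⁻¹ * x, ?_, by rw [mul_inv_cancel_left]⟩
  refine ⟨?_, ?_, ?_⟩ <;> simp [mul_def, inv_def, rep, key] <;> ring_nf <;> simp [two0]

/-- The elements of the abelian subgroup commuting with a representative. -/
def fixA (u : F₂ × F₂ × F₂) : Finset (F₂ × F₂ × F₂ × F₂ × F₂ × F₂) :=
  Finset.univ.filter fun t => rep u * mkA t = mkA t * rep u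

theorem fix_one : ∀ u : F₂ × F₂ × F₂, u ≠ 0 → (fixA u).card ≤ 16 := by decide +kernel

theorem fix_two : ∀ u v : F₂ × F₂ × F₂, u ≠ 0 → v ≠ 0 → u ≠ v →
    key (rep u * rep v) = key (rep v * rep u) → (fixA u ∩ fixA v).card ≤ 8 := by decide +kernel

theorem key_mul (x y : U9) : key (x * y) = (x.b + y.b, x.c + y.c, x.f + y.f + x.b * y.c) := rfl

theorem key_rep (x : U9) (y : U9) : key (rep (key x) * rep (key y)) = key (x * y) := rfl

theorem unique_abelian (B : Subgroup U9) (hB : IsMulCommutative B) (hc : Nat.card B = 64) : B = A := by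
  classical
  haveI := A_normal
  have comm : ∀ x ∈ B, ∀ y ∈ B, x * y = y * x := fun x hx y hy =>
    congrArg Subtype.val (mul_comm' (⟨x, hx⟩ : B) ⟨y, hy⟩)
  by_cases hle : B ≤ A
  · exact Subgroup.eq_of_le_of_card_ge hle (by rw [card_A, hc])
  exfalso
  set q := QuotientGroup.mk' A
  have hindex : A.index = 8 := by
    have := A.card_mul_index
    rw [card_A, card_U9] at this
    omega
  have hsplit : Nat.card B = Nat.card ↥(A.subgroupOf B) * Nat.card (B.map q) := by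
    rw [← (q.comp B.subtype).ker.card_mul_index, Subgroup.index_ker,
      show (q.comp B.subtype).ker = A.subgroupOf B by ext x; simp [q, Subgroup.mem_subgroupOf],
      MonoidHom.range_comp, Subgroup.range_subtype]
  have hbound : ∀ S : Finset (F₂ × F₂ × F₂ × F₂ × F₂ × F₂),
      (∀ t, mkA t ∈ B → t ∈ S) → Nat.card ↥(A.subgroupOf B) ≤ S.card := by
    intro S hS
    rw [← Nat.card_eq_finsetCard]
    refine Nat.card_le_card_of_injective (fun x => (⟨(mem_A_iff.1 x.2).choose, hS _ (by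
      rw [(mem_A_iff.1 x.2).choose_spec]; exact x.1.2)⟩ : S)) fun x y e => ?_
    have e' : (mem_A_iff.1 x.2).choose = (mem_A_iff.1 y.2).choose := congrArg Subtype.val e
    exact Subtype.ext (Subtype.ext ((mem_A_iff.1 x.2).choose_spec.symm.trans
      ((congrArg mkA e').trans (mem_A_iff.1 y.2).choose_spec)))
  have hin : ∀ x ∈ B, ∀ t, mkA t ∈ B → t ∈ fixA (key x) := by
    intro x hx t ht
    obtain ⟨s, hs, e⟩ := exists_mul x
    have h := comm x hx (mkA t) ht
    rw [fixA, Finset.mem_filter]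
    refine ⟨Finset.mem_univ _, ?_⟩
    have hts : s * mkA t = mkA t * s := A_comm hs (mem_A_iff.2 ⟨t, rfl⟩)
    have e' : rep (key x) = x * s⁻¹ := by rw [eq_mul_inv_iff_mul_eq]; exact e.symm
    rw [e', mul_assoc, show s⁻¹ * mkA t = mkA t * s⁻¹ from
      ((show Commute s (mkA t) from hts).inv_left).eq, ← mul_assoc, h, mul_assoc]
  have hne : ∀ x, x ∉ A → key x ≠ 0 := fun x hx h => hx (by
    simp only [key, Prod.mk_eq_zero] at h
    exact h)
  have hsame : ∀ x y, key x = key y → x⁻¹ * y ∈ A := by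
    intro x y h
    simp only [key, Prod.mk.injEq] at h
    refine ⟨?_, ?_, ?_⟩ <;> simp [mul_def, inv_def, h.1, h.2.1, h.2.2] <;> ring_nf <;> simp [two0]
  obtain ⟨x, hxB, hxA⟩ := SetLike.not_le_iff_exists.1 hle
  have h16 := (hbound (fixA (key x)) (hin x hxB)).trans (fix_one _ (hne x hxA))
  have him8 : Nat.card (B.map q) ∣ 8 := by
    rw [← hindex, Subgroup.index_eq_card]
    exact Subgroup.card_subgroup_dvd_card _
  have hnot8 : Nat.card (B.map q) ≠ 8 := by
    intro h8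
    have htop : B.map q = ⊤ := Subgroup.eq_top_of_card_eq _ (by rw [h8, ← hindex, Subgroup.index_eq_card])
    obtain ⟨u, huB, hu⟩ := (show q (rep (1, 0, 0)) ∈ B.map q from htop ▸ Subgroup.mem_top _)
    obtain ⟨v, hvB, hv⟩ := (show q (rep (0, 1, 0)) ∈ B.map q from htop ▸ Subgroup.mem_top _)
    have hqk : ∀ a b, q a = q b → key a = key b := by
      intro a b hab
      obtain ⟨h1, h2, h3⟩ := QuotientGroup.eq.1 hab
      simp only [mul_def, inv_def] at h1 h2 h3
      have eb : b.b = a.b := (eq_neg_of_add_eq_zero_right h1).trans (ZMod.neg_eq_self_mod_two _)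
      have ec : b.c = a.c := (eq_neg_of_add_eq_zero_right h2).trans (ZMod.neg_eq_self_mod_two _)
      rw [ec, show a.f + a.b * a.c + b.f + a.b * a.c = a.f + b.f + 2 * (a.b * a.c) by ring, two0, zero_mul,
        add_zero] at h3
      have ef : b.f = a.f := (eq_neg_of_add_eq_zero_right h3).trans (ZMod.neg_eq_self_mod_two _)
      simp only [key, eb, ec, ef]
    have ku := hqk _ _ hu
    have kv := hqk _ _ hv
    have h := congrArg key (comm u huB v hvB)
    rw [← key_rep u v, ← key_rep v u, ku, kv] at h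
    exact absurd h (by decide +kernel)
  by_cases hk : ∃ y ∈ B, y ∉ A ∧ key y ≠ key x
  · obtain ⟨y, hyB, hyA, hyx⟩ := hk
    have h8 := (hbound (fixA (key x) ∩ fixA (key y)) fun t ht =>
      Finset.mem_inter.2 ⟨hin x hxB t ht, hin y hyB t ht⟩).trans
      (fix_two _ _ (hne x hxA) (hne y hyA) (Ne.symm hyx) (by
        rw [key_rep, key_rep, comm x hxB y hyB]))
    rw [hc] at hsplit
    have hd := Nat.le_of_dvd (by norm_num) him8
    nlinarith [lt_of_le_of_ne hd hnot8]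
  · push Not at hk
    have h2 : Nat.card (B.map q) ≤ 2 := by
      have hsub : ((B.map q : Subgroup _) : Set (U9 ⧸ A)) ⊆ {1, q x} := by
        rintro _ ⟨y, hy, rfl⟩
        by_cases hyA : y ∈ A
        · exact Or.inl ((QuotientGroup.eq_one_iff y).2 hyA)
        · exact Or.inr (QuotientGroup.eq.2 (hsame y x (hk y hy hyA)))
      have := Set.ncard_le_ncard hsub (Set.toFinite _)
      rw [← Nat.card_coe_set_eq] at this
      exact this.trans (Set.ncard_insert_le _ _ |>.trans (by rw [Set.ncard_singleton]))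
    rw [hc] at hsplit
    nlinarith

/-- The four generators and products of them. -/
def word (u : F₂ × F₂ × F₂ × F₂) : U9 := ⟨u.1, u.2.1, u.2.2.1, u.2.2.2, 0, 0, 0, 0, 0⟩

/-- The elements of the derived subgroup. -/
def der (t : F₂ × F₂ × F₂ × F₂ × F₂) : U9 := ⟨0, 0, 0, 0, t.1, t.2.1, t.2.2.1, t.2.2.2.1, t.2.2.2.2⟩

/-- Pairs of test elements inside the kernel of a functional, and derived elements commuting with them. -/
def centIn (m : F₂ × F₂ × F₂ × F₂) : Finset (F₂ × F₂ × F₂ × F₂ × F₂) :=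
  Finset.univ.filter fun t => ∀ u : F₂ × F₂ × F₂ × F₂,
    m.1 * u.1 + m.2.1 * u.2.1 + m.2.2.1 * u.2.2.1 + m.2.2.2 * u.2.2.2 = 0 → der t * word u = word u * der t

theorem centIn_card : ∀ m : F₂ × F₂ × F₂ × F₂, m ≠ 0 → (centIn m).card ≤ 8 := by decide +kernel

theorem eq_word_mul (x : U9) : ∃ t, x = word (x.a, x.b, x.c, x.d) * der t := by
  refine ⟨(x.e, x.f, x.g, x.h + x.a * x.f, x.i + x.b * x.g), ?_⟩
  simp only [word, der, mul_def]
  ext <;> simp <;> ring_nf <;> simp [two0]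

theorem center_coatom (M : Subgroup U9) (hM : M.index = 2) : Nat.card (Subgroup.center M) ≤ 8 := by
  classical
  have hsq : ∀ x : U9, x * x ∈ M := fun x => pow_two x ▸ Subgroup.sq_mem_of_index_two hM x
  have hder : ∀ t, der t ∈ M := by
    intro t
    have hz : ∀ r : F₂, r = 0 ∨ r = 1 := by decide
    have h1 : der (1, 0, 0, 0, 0) ∈ M := by
      have h := hsq ⟨1, 1, 0, 0, 0, 0, 0, 0, 0⟩
      rwa [show (⟨1, 1, 0, 0, 0, 0, 0, 0, 0⟩ * ⟨1, 1, 0, 0, 0, 0, 0, 0, 0⟩ : U9) = der (1, 0, 0, 0, 0) by decide +kernel] at h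
    have h2 : der (0, 1, 0, 0, 0) ∈ M := by
      have h := hsq ⟨0, 1, 1, 0, 0, 0, 0, 0, 0⟩
      rwa [show (⟨0, 1, 1, 0, 0, 0, 0, 0, 0⟩ * ⟨0, 1, 1, 0, 0, 0, 0, 0, 0⟩ : U9) = der (0, 1, 0, 0, 0) by decide +kernel] at h
    have h3 : der (0, 0, 1, 0, 0) ∈ M := by
      have h := hsq ⟨0, 0, 1, 1, 0, 0, 0, 0, 0⟩
      rwa [show (⟨0, 0, 1, 1, 0, 0, 0, 0, 0⟩ * ⟨0, 0, 1, 1, 0, 0, 0, 0, 0⟩ : U9) = der (0, 0, 1, 0, 0) by decide +kernel] at h
    have h4 : der (0, 0, 0, 1, 0) ∈ M := by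
      have h := hsq ⟨1, 0, 0, 0, 0, 1, 0, 0, 0⟩
      rwa [show (⟨1, 0, 0, 0, 0, 1, 0, 0, 0⟩ * ⟨1, 0, 0, 0, 0, 1, 0, 0, 0⟩ : U9) = der (0, 0, 0, 1, 0) by decide +kernel] at h
    have h5 : der (0, 0, 0, 0, 1) ∈ M := by
      have h := hsq ⟨0, 1, 0, 0, 0, 0, 1, 0, 0⟩
      rwa [show (⟨0, 1, 0, 0, 0, 0, 1, 0, 0⟩ * ⟨0, 1, 0, 0, 0, 0, 1, 0, 0⟩ : U9) = der (0, 0, 0, 0, 1) by decide +kernel] at h
    have hmul : ∀ s s', der s * der s' = der (s + s') := fun s s' => by
      simp only [der, mul_def]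
      ext <;> simp
    have h0 : der 0 ∈ M := by rw [show der 0 = 1 from rfl]; exact one_mem M
    have hcl : ∀ s s', der s ∈ M → der s' ∈ M → der (s + s') ∈ M := fun s s' hs hs' => hmul s s' ▸ mul_mem hs hs'
    obtain ⟨p, q, r, s, w⟩ := t
    have e : (p, q, r, s, w) = (p, 0, 0, 0, 0) + (0, q, 0, 0, 0) + (0, 0, r, 0, 0) + (0, 0, 0, s, 0) + (0, 0, 0, 0, w) := by
      simp
    rw [e]
    refine hcl _ _ (hcl _ _ (hcl _ _ (hcl _ _ ?_ ?_) ?_) ?_) ?_
    · rcases hz p with rfl | rfl; exacts [h0, h1]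
    · rcases hz q with rfl | rfl; exacts [h0, h2]
    · rcases hz r with rfl | rfl; exacts [h0, h3]
    · rcases hz s with rfl | rfl; exacts [h0, h4]
    · rcases hz w with rfl | rfl; exacts [h0, h5]
  -- the functional defining the subgroup
  let χ : U9 → F₂ := fun x => if x ∈ M then 0 else 1
  have hχmul : ∀ x y, χ (x * y) = χ x + χ y := fun x y => by
    have h := Subgroup.mul_mem_iff_of_index_two hM (a := x) (b := y)
    by_cases hx : x ∈ M <;> by_cases hy : y ∈ M <;> simp [χ, h, hx, hy, ← two_mul, two0]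
  set m : F₂ × F₂ × F₂ × F₂ :=
    (χ (word (1, 0, 0, 0)), χ (word (0, 1, 0, 0)), χ (word (0, 0, 1, 0)), χ (word (0, 0, 0, 1))) with hm
  have hχ : ∀ x : U9, χ x = m.1 * x.a + m.2.1 * x.b + m.2.2.1 * x.c + m.2.2.2 * x.d := by
    intro x
    have hz : ∀ r : F₂, r = 0 ∨ r = 1 := by decide
    obtain ⟨t, e⟩ := eq_word_mul x
    have hw : ∀ a b c d : F₂, ∃ s, word (a, b, c, d) =
        word (a, 0, 0, 0) * word (0, b, 0, 0) * word (0, 0, c, 0) * word (0, 0, 0, d) * der s := by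
      decide +kernel
    obtain ⟨s, es⟩ := hw x.a x.b x.c x.d
    have hd0 : ∀ s, χ (der s) = 0 := fun s => by simp [χ, hder s]
    have h1 : χ 1 = 0 := by simp [χ, one_mem M]
    conv_lhs => rw [e, es]
    simp only [hχmul, hd0, add_zero, hm]
    rcases hz x.a with ha | ha <;> rcases hz x.b with hb | hb <;> rcases hz x.c with hc | hc <;>
      rcases hz x.d with hd | hd <;>
      simp [ha, hb, hc, hd, show word (0, 0, 0, 0) = 1 from rfl, h1]
  have hm0 : m ≠ 0 := fun h => by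
    have htop : M = ⊤ := eq_top_iff.2 fun x _ => by
      by_contra hx
      have := hχ x
      simp [χ, hx, h] at this
    rw [htop, Subgroup.index_top] at hM
    omega
  -- a central element commutes with the derived part, hence lies in it
  have hCD : ∀ x : U9, (∀ t, der t * x = x * der t) → x.a = 0 ∧ x.b = 0 ∧ x.c = 0 ∧ x.d = 0 := by
    intro x h
    have e1 := congrArg U9.h (h (1, 0, 0, 0, 0))
    have e2 := congrArg U9.i (h (0, 0, 1, 0, 0))
    have e3 := congrArg U9.h (h (0, 1, 0, 0, 0))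
    have e4 := congrArg U9.i (h (0, 1, 0, 0, 0))
    simp only [mul_def, der] at e1 e2 e3 e4
    simp only [zero_mul, one_mul, mul_one, mul_zero, zero_add, add_zero] at e1 e2 e3 e4
    exact ⟨left_eq_add.1 e3, left_eq_add.1 (e2.trans (by ring)), left_eq_add.1 (Eq.symm (e1.trans (by ring))),
      left_eq_add.1 (Eq.symm (e4.trans (by ring)))⟩

  refine le_trans ?_ (centIn_card m hm0)
  rw [← Nat.card_eq_finsetCard]
  refine Nat.card_le_card_of_injective (fun z => (⟨(z.1.1.e, z.1.1.f, z.1.1.g, z.1.1.h, z.1.1.i), ?_⟩ : centIn m)) ?_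
  · have hcom : ∀ y ∈ M, y * z.1.1 = z.1.1 * y := fun y hy =>
      congrArg Subtype.val (Subgroup.mem_center_iff.1 z.2 ⟨y, hy⟩)
    obtain ⟨za, zb, zc, zd⟩ := hCD _ fun t => hcom _ (hder t)
    have hzd : der (z.1.1.e, z.1.1.f, z.1.1.g, z.1.1.h, z.1.1.i) = z.1.1 := by
      ext <;> simp [der, za, zb, zc, zd]
    rw [centIn, Finset.mem_filter]
    refine ⟨Finset.mem_univ _, fun u hu => ?_⟩
    rw [hzd]
    refine (hcom _ ?_).symm
    by_contra hn
    have := hχ (word u)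
    rw [show χ (word u) = 1 from if_neg hn] at this
    simp only [word] at this
    rw [hu] at this
    exact one_ne_zero this
  · intro z w e
    have hcz := hCD _ fun t => congrArg Subtype.val (Subgroup.mem_center_iff.1 z.2 ⟨_, hder t⟩)
    have hcw := hCD _ fun t => congrArg Subtype.val (Subgroup.mem_center_iff.1 w.2 ⟨_, hder t⟩)
    simp only [Subtype.mk.injEq, Prod.mk.injEq] at e
    refine Subtype.ext (Subtype.ext (U9.ext ?_ ?_ ?_ ?_ e.1 e.2.1 e.2.2.1 e.2.2.2.1 e.2.2.2.2))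
    · rw [hcz.1, hcw.1]
    · rw [hcz.2.1, hcw.2.1]
    · rw [hcz.2.2.1, hcw.2.2.1]
    · rw [hcz.2.2.2, hcw.2.2.2]



end U9

end CfsgLib.UTModel
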