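/-
A Sylow 2-subgroup of M24 modulo its centre.
-/
import Cfsg.Agent.Golay.UTModel
import Cfsg.Agent.Golay.OctInvol
import Cfsg.Agent.Heisenberg.Centralizer
import Cfsg.Agent.MaxCent.Basic
import Mathlib

set_option autoImplicit false
set_option maxRecDepth 4000

namespace CfsgLib.UTModel

open Matrix

local notation "F₂" => ZMod 2

/-- All ten entries. -/
@[ext] structure U10 where
  low : U9
  k : F₂
deriving DecidableEq

namespace U10

instance : Mul U10 where
  mul x y := ⟨x.low * y.low, x.k + y.k + x.low.a * y.low.i + x.low.e * y.low.g + x.low.h * y.low.d⟩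

instance : One U10 where one := ⟨1, 0⟩

theorem mul_def (x y : U10) :
    x * y = ⟨x.low * y.low, x.k + y.k + x.low.a * y.low.i + x.low.e * y.low.g + x.low.h * y.low.d⟩ := rfl

theorem one_def : (1 : U10) = ⟨1, 0⟩ := rfl

instance : Inv U10 where
  inv x := ⟨x.low⁻¹, x.k + x.low.a * x.low⁻¹.i + x.low.e * x.low⁻¹.g + x.low.h * x.low⁻¹.d⟩

theorem inv_def (x : U10) :
    x⁻¹ = ⟨x.low⁻¹, x.k + x.low.a * x.low⁻¹.i + x.low.e * x.low⁻¹.g + x.low.h * x.low⁻¹.d⟩ := rfl

theorem mul_assoc' (x y z : U10) : x * y * z = x * (y * z) := by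
  simp only [mul_def]
  refine U10.ext (mul_assoc _ _ _) ?_
  simp only [U9.mul_def]
  ring

theorem one_mul' (x : U10) : 1 * x = x := by
  simp only [mul_def, one_def]
  refine U10.ext (one_mul _) ?_
  simp [U9.one_def]

theorem mul_one' (x : U10) : x * 1 = x := by
  simp only [mul_def, one_def]
  refine U10.ext (mul_one _) ?_
  simp [U9.one_def]

theorem mul_inv' (x : U10) : x * x⁻¹ = 1 := by
  simp only [mul_def, inv_def, one_def]
  refine U10.ext (mul_inv_cancel _) ?_
  ring_nf
  simp [U9.two0]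

instance : Group U10 := Group.ofRightAxioms mul_assoc' mul_one' mul_inv'

/-- All ten entries as a pair. -/
def toPair : U10 ≃ U9 × F₂ where
  toFun x := (x.low, x.k)
  invFun t := ⟨t.1, t.2⟩
  left_inv _ := rfl
  right_inv _ := rfl

theorem card_U10 : Nat.card U10 = 1024 := by
  rw [Nat.card_congr toPair, Nat.card_prod, U9.card_U9, Nat.card_zmod]

/-- The quotient map. -/
def proj : U10 →* U9 where
  toFun := U10.low
  map_one' := rfl
  map_mul' _ _ := rfl

theorem proj_surjective : Function.Surjective proj := fun y => ⟨⟨y, 0⟩, rfl⟩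

theorem center_eq : Subgroup.center U10 = proj.ker := by
  ext x
  rw [Subgroup.mem_center_iff, MonoidHom.mem_ker]
  constructor
  · intro h
    have t : ∀ y, (y * x).low = (x * y).low ∧ (y * x).k = (x * y).k := fun y => by rw [h y]; exact ⟨rfl, rfl⟩
    obtain ⟨la, ka⟩ := t ⟨⟨1, 0, 0, 0, 0, 0, 0, 0, 0⟩, 0⟩
    obtain ⟨lb, -⟩ := t ⟨⟨0, 1, 0, 0, 0, 0, 0, 0, 0⟩, 0⟩
    obtain ⟨lc, -⟩ := t ⟨⟨0, 0, 1, 0, 0, 0, 0, 0, 0⟩, 0⟩
    obtain ⟨-, kd⟩ := t ⟨⟨0, 0, 0, 1, 0, 0, 0, 0, 0⟩, 0⟩
    have a1 := congrArg U9.h la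
    have a2 := congrArg U9.e la
    have b1 := congrArg U9.e lb
    have b2 := congrArg U9.f lb
    have b3 := congrArg U9.i lb
    have c1 := congrArg U9.g lc
    have c2 := congrArg U9.h lc
    simp [mul_def, U9.mul_def] at a1 a2 b1 b2 b3 c1 c2 ka kd
    show x.low = 1
    refine U9.ext ?_ ?_ ?_ ?_ ?_ ?_ ?_ ?_ ?_ <;> simp only [U9.one_def] <;> assumption
  · intro h y
    have h' : x.low = 1 := h
    simp only [mul_def, h']
    refine U10.ext (by simp) ?_
    simp [U9.one_def, add_comm]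

/-- The matrix of an element. -/
def toMat (x : U10) : Matrix (Fin 5) (Fin 5) F₂ :=
  !![1, x.low.a, x.low.e, x.low.h, x.k; 0, 1, x.low.b, x.low.f, x.low.i; 0, 0, 1, x.low.c, x.low.g;
     0, 0, 0, 1, x.low.d; 0, 0, 0, 0, 1]

theorem toMat_mul (x y : U10) : toMat (x * y) = toMat x * toMat y := by
  ext i j
  fin_cases i <;> fin_cases j <;>
    simp [toMat, Matrix.mul_apply, Fin.sum_univ_five, mul_def, U9.mul_def] <;> ring

theorem toMat_one : toMat 1 = 1 := by
  ext i j
  fin_cases i <;> fin_cases j <;> rfl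

/-- The unitriangular matrices. -/
def toGL : U10 →* GL (Fin 5) F₂ :=
  MonoidHom.toHomUnits
    { toFun := toMat
      map_one' := toMat_one
      map_mul' := toMat_mul }

theorem toGL_injective : Function.Injective toGL := fun x y h => by
  have e : toMat x = toMat y := congrArg Units.val h
  have t := fun i j => congrFun (congrFun e i) j
  exact U10.ext (U9.ext (t 0 1) (t 1 2) (t 2 3) (t 3 4) (t 0 2) (t 1 3) (t 2 4) (t 0 3) (t 1 4)) (t 0 4)

theorem toGL_mem_stab (x : U10) : toGL x ∈ Heisenberg.stab 3 := by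
  rw [Heisenberg.mem_stab_iff]
  refine ⟨funext fun i => ?_, funext fun i => ?_⟩
  · show (toMat x *ᵥ (Heisenberg.e0 : Fin 5 → F₂)) i = _
    have he : (Heisenberg.e0 : Fin 5 → F₂) = ![1, 0, 0, 0, 0] := by decide +kernel
    rw [he]
    fin_cases i <;> simp [toMat, Matrix.mulVec, dotProduct, Fin.sum_univ_five]
  · show ((Heisenberg.eL : Fin 5 → F₂) ᵥ* toMat x) i = _
    have hL : (Heisenberg.eL : Fin 5 → F₂) = ![0, 0, 0, 0, 1] := by decide +kernel
    rw [hL]
    fin_cases i <;> simp [toMat, Matrix.vecMul, dotProduct, Fin.sum_univ_five]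

end U10

end CfsgLib.UTModel

namespace CfsgLib.Golay.SylowTwo

open Cfsg CfsgLib.Golay

/-- A Sylow 2-subgroup modulo its centre is the central quotient of the unitriangular group. -/
theorem equiv_model (P : Sylow 2 M24) :
    Nonempty ((↥(P : Subgroup M24) ⧸ Subgroup.center ↥(P : Subgroup M24)) ≃* UTModel.U9) := by
  haveI : Fact (Nat.Prime 2) := ⟨Nat.prime_two⟩
  obtain ⟨z, hz, hfix⟩ : ∃ z : M24, orderOf z = 2 ∧
      (Finset.univ.filter fun p : GolayPt => (z : Equiv.Perm GolayPt) p = p) ∈ octads := by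
    obtain ⟨hv, hmem, hsq, hne⟩ := Invol.permOf_rep true
    refine ⟨⟨_, hmem⟩, orderOf_eq_prime ?_ (fun h => hne (congrArg Subtype.val h)), ?_⟩
    · exact Subtype.ext (by rw [pow_two]; exact hsq)
    · exact mem_octads_iff.2 Invol.rep8_fixed
  obtain ⟨G, zG, f, -, hf, hr, -, -⟩ := OctInvol.exists_matrix_rep z hz hfix
  have hle : (UTModel.U10.toGL).range ≤ f.range := by
    rintro _ ⟨x, rfl⟩; exact hr (UTModel.U10.toGL_mem_stab x)
  let K : Subgroup G := (UTModel.U10.toGL).range.comap f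
  let eK : ↥K ≃* UTModel.U10 :=
    ((K.equivMapOfInjective f hf).trans (MulEquiv.subgroupCongr (Subgroup.map_comap_eq_self hle))).trans
      (MonoidHom.ofInjective UTModel.U10.toGL_injective).symm
  let eK' : ↥(K.map G.subtype) ≃* UTModel.U10 := (K.equivMapOfInjective _ G.subtype_injective).symm.trans eK
  have hKc : Nat.card ↥(K.map G.subtype) = 2 ^ 10 := by
    rw [Nat.card_congr eK'.toEquiv, UTModel.U10.card_U10]; norm_num
  have hnd : ¬ 2 ∣ (K.map G.subtype).index := by
    have := (K.map G.subtype).card_mul_index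
    rw [hKc, card_M24] at this
    omega
  let S : Sylow 2 M24 := (IsPGroup.of_card hKc).toSylow hnd
  let e : ↥(P : Subgroup M24) ≃* UTModel.U10 := (Sylow.equiv P S).trans eK'
  have hker : (UTModel.U10.proj.comp e.toMonoidHom).ker = Subgroup.center ↥(P : Subgroup M24) := by
    ext x
    rw [MonoidHom.mem_ker, MonoidHom.comp_apply, ← MonoidHom.mem_ker, ← UTModel.U10.center_eq,
      Subgroup.mem_center_iff, Subgroup.mem_center_iff]
    exact ⟨fun h y => e.injective (by rw [map_mul, map_mul]; exact h (e y)),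
      fun h w => by
        obtain ⟨y, rfl⟩ := e.surjective w
        show e y * e x = e x * e y
        rw [← map_mul, ← map_mul, h y]⟩
  exact ⟨(QuotientGroup.quotientMulEquivOfEq hker.symm).trans
    (QuotientGroup.quotientKerEquivOfSurjective (UTModel.U10.proj.comp e.toMonoidHom)
      (UTModel.U10.proj_surjective.comp e.surjective))⟩

theorem structure_of_equiv {S : Type*} [Group S] (e : S ≃* UTModel.U9) :
    (∀ M : Subgroup S, IsCoatom M → Nat.card ↥(Subgroup.center ↥M) ≤ 8) ∧
      (∃ A : Subgroup S, IsElementaryAbelian 2 A ∧ Nat.card ↥A = 64) ∧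
      ∀ A B : Subgroup S, IsMulCommutative ↥A → Nat.card ↥A = 64 → IsMulCommutative ↥B → Nat.card ↥B = 64 →
        A = B := by
  haveI : Fact (Nat.Prime 2) := ⟨Nat.prime_two⟩
  haveI : Finite S := Finite.of_equiv _ e.symm.toEquiv
  have hS : IsPGroup 2 S := IsPGroup.of_card (n := 9) (by rw [Nat.card_congr e.toEquiv, UTModel.U9.card_U9]; norm_num)
  haveI : Group.IsNilpotent S := hS.isNilpotent
  have hcard : ∀ A : Subgroup S, Nat.card ↥(A.map e.toMonoidHom) = Nat.card ↥A := fun A =>
    (Nat.card_congr (A.equivMapOfInjective _ e.injective).toEquiv).symm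
  refine ⟨fun M hM => ?_, ⟨UTModel.U9.A.comap e.toMonoidHom, ?_, ?_⟩, fun A B hA hAc hB hBc => ?_⟩
  · haveI hn : M.Normal := Subgroup.NormalizerCondition.normal_of_coatom M normalizerCondition_of_isNilpotent hM
    have hi : M.index = 2 := by
      obtain ⟨k, hk⟩ := hS.index M
      have hp := CfsgLib.MaxCent.prime_index hM
      rw [hk] at hp ⊢
      rw [hp.eq_one_of_pow, pow_one]
    refine le_of_eq_of_le ?_ (UTModel.U9.center_coatom (M.map e.toMonoidHom)
      ((Subgroup.index_map_equiv M e).trans hi))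
    exact Nat.card_congr (Subgroup.centerCongr (M.equivMapOfInjective _ e.injective)).toEquiv
  · refine ⟨⟨⟨fun a b => Subtype.ext (e.injective ?_)⟩⟩, fun a ha => e.injective ?_⟩
    · show e (a * b : S) = e (b * a : S)
      rw [map_mul, map_mul]; exact UTModel.U9.A_comm a.2 b.2
    · rw [pow_two, map_mul, map_one]; exact UTModel.U9.A_sq ha
  · rw [← hcard, Subgroup.map_comap_eq_self_of_surjective (f := e.toMonoidHom) e.surjective, UTModel.U9.card_A]
  · have h : ∀ A : Subgroup S, IsMulCommutative ↥A → Nat.card ↥A = 64 → A.map e.toMonoidHom = UTModel.U9.A := by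
      intro A hA hc
      refine UTModel.U9.unique_abelian _ ⟨⟨fun a b => ?_⟩⟩ (by rw [hcard, hc])
      obtain ⟨_, a', ha', rfl⟩ := a
      obtain ⟨_, b', hb', rfl⟩ := b
      refine Subtype.ext ?_
      show e a' * e b' = e b' * e a'
      rw [← map_mul, ← map_mul]
      exact congrArg e (congrArg Subtype.val (mul_comm' (⟨a', ha'⟩ : A) ⟨b', hb'⟩))
    exact Subgroup.map_injective e.injective ((h A hA hAc).trans (h B hB hBc).symm)

end CfsgLib.Golay.SylowTwo
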